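import Cfsg.Agent.H88.Deg2

/-!
# Characters of prime codegree
-/

set_option autoImplicit false

open scoped ComplexConjugate
open Cfsg Cfsg.Agent.H5 Cfsg.Agent.H6

namespace Cfsg.Agent.H88

variable {G : Type*} [Group G] [Finite G] {χ : G → ℂ}

/-- A Sylow subgroup of index less than `p` is normal. -/
theorem sylow_normal_of_index_lt {p : ℕ} [hp : Fact p.Prime] (P : Sylow p G)
    (h : (P : Subgroup G).index < p) : (P : Subgroup G).Normal := by
  have h1 := card_sylow_modEq_one p G
  have h2 := Nat.le_of_dvd (Nat.pos_of_ne_zero Subgroup.index_ne_zero_of_finite) P.card_dvd_index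
  rw [Nat.ModEq, Nat.mod_eq_of_lt (h2.trans_lt h), Nat.mod_eq_of_lt hp.out.one_lt] at h1
  have := (Nat.card_eq_one_iff_unique.mp h1).1
  exact P.normal_of_subsingleton

theorem exists_normal_of_codegree_prime (hχ : IsIrrCharacter G χ)
    (hf : ∀ g, χ g = χ 1 → g = 1) {p : ℕ} (hp : p.Prime) (hc : Nat.card G = p * charDegree χ) :
    ∃ P : Subgroup G, P.Normal ∧ Nat.card P = p ∧ P.index = charDegree χ ∧ charDegree χ < p ∧
      Subgroup.centralizer (P : Set G) ≤ P := by
  have := Fact.mk hp
  have hd := charDegree_pos hχ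
  have h1 : χ ≠ fun _ => 1 := by
    rintro rfl
    have : Subsingleton G := ⟨fun a b => by rw [hf a rfl, hf b rfl]⟩
    rw [Nat.card_of_subsingleton (1 : G), charDegree_one, mul_one] at hc
    exact hp.one_lt.ne hc
  have hlt : charDegree χ < p := by
    have := charDegree_sq_lt_card hχ h1
    rw [hc, sq] at this
    exact Nat.lt_of_mul_lt_mul_right this
  obtain ⟨P⟩ : Nonempty (Sylow p G) := inferInstance
  have hP : Nat.card P = p := by
    rw [P.card_eq_multiplicity, hc, Nat.factorization_mul hp.ne_zero hd.ne', Finsupp.add_apply,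
      hp.factorization_self, Nat.factorization_eq_zero_of_lt hlt]
    simp
  have hi : (P : Subgroup G).index = charDegree χ := by
    have := (P : Subgroup G).card_mul_index
    rw [hc, hP] at this
    exact Nat.eq_of_mul_eq_mul_left hp.pos this
  refine ⟨P, sylow_normal_of_index_lt P (hi ▸ hlt), hP, hi, hlt, fun h hh => ?_⟩
  have hcyc : IsCyclic (P : Subgroup G) := isCyclic_of_prime_card hP
  have hcomm : ∀ a ∈ (P : Subgroup G), ∀ b ∈ (P : Subgroup G), a * b = b * a := fun a ha b hb =>
    congrArg Subtype.val (hcyc.isMulCommutative.is_comm.comm (⟨a, ha⟩ : (P : Subgroup G)) ⟨b, hb⟩)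
  let A := Subgroup.closure (insert h ((P : Subgroup G) : Set G))
  have hA : IsMulCommutative A := Subgroup.isMulCommutative_closure (by
    rintro x (rfl | hx) y (rfl | hy)
    · rfl
    · exact (hh y hy).symm
    · exact hh x hx
    · exact hcomm x hx y hy)
  have hPA : (P : Subgroup G) ≤ A := fun x hx => Subgroup.subset_closure (Or.inr hx)
  have h2 := charDegree_le_index_of_comm hχ A fun a ha b hb =>
    congrArg Subtype.val (hA.is_comm.comm (⟨a, ha⟩ : A) ⟨b, hb⟩)
  have h3 : A ≤ P := by
    by_contra hne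
    have := Subgroup.index_strictAnti (lt_of_le_of_ne hPA fun e => hne e.ge)
    omega
  exact h3 (Subgroup.subset_closure (Or.inl rfl))

end Cfsg.Agent.H88
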