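import Cfsg.Agent.H88.Deg4
import Cfsg.Agent.H88.Count
import Cfsg.Agent.H43.Basic

/-!
# Faithful characters of prime degree; small degrees and normal Sylow subgroups
-/

set_option autoImplicit false

open scoped ComplexConjugate commutatorElement
open Cfsg Cfsg.Agent.H5 Cfsg.Agent.H6

namespace Cfsg.Agent.H88

variable {G : Type*} [Group G] [Finite G] {χ : G → ℂ}

theorem card_dvd_charDegree_of_vanish (h : IsCharacter G χ) (A : Subgroup G)
    (hA : ∀ a ∈ A, a ≠ 1 → χ a = 0) : Nat.card A ∣ charDegree χ := by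
  have := Fintype.ofFinite A
  obtain ⟨m, hm⟩ := exists_nat_classInner (isCharacter_restrict h A) isCharacter_one
  rw [classInner_one_right, inv_mul_eq_iff_eq_mul₀ natCard_ne_zero,
    Finset.sum_eq_single_of_mem (1 : A) (Finset.mem_univ _) fun a _ ha =>
      hA a a.2 fun e => ha (Subtype.ext e)] at hm
  exact ⟨m, charDegree_eq_of_eq (by exact_mod_cast hm)⟩

theorem center_ne_bot_of_degree_prime {p : ℕ} (hp : p.Prime) (h : IsIrrCharacter G χ)
    (hd : charDegree χ = p) (hf : ∀ g, χ g = χ 1 → g = 1) (hdiv : p ^ 2 ∣ Nat.card G) :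
    Subgroup.center G ≠ ⊥ := by
  intro hZ
  have := Fact.mk hp
  have hχ := isCharacter_of_isIrr h
  obtain ⟨P⟩ : Nonempty (Sylow p G) := inferInstance
  have := Fintype.ofFinite P
  have h1 := P.pow_dvd_card_of_pow_dvd_card hdiv
  have h2 : ∀ z : G, ‖χ z‖ = ‖χ 1‖ → z = 1 := fun z hz =>
    Subgroup.mem_bot.mp (hZ ▸ mem_center_of_norm_eq hχ hf hz)
  by_cases hc : ∀ ψ, IsIrrCharacter P ψ → classInner (fun x : P => χ x) ψ ≠ 0 → charDegree ψ = 1
  · have h3 : ∀ a ∈ (P : Subgroup G), ∀ b ∈ (P : Subgroup G), a * b = b * a := fun a ha b hb =>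
      commutatorElement_eq_one_iff_mul_comm.mp (hf _ (apply_eq_degree_of_forall_constituent
        (isCharacter_restrict hχ P) (g := ⁅(⟨a, ha⟩ : P), ⟨b, hb⟩⁆) fun ψ hψ hne =>
          (commutator_le_charKer_iff hψ).mpr (hc ψ hψ hne) _
            (commutatorElement_mem_commutator' _ _)))
    have h4 := card_dvd_charDegree_of_vanish hχ P fun a ha ha1 =>
      (eq_zero_or_norm_eq_of_coprime h a (charDegree_cast hχ).symm (hd ▸
        (Nat.Prime.coprime_iff_not_dvd hp).mpr fun e => P.not_dvd_index (e.trans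
          (Subgroup.index_dvd_of_le fun u hu => Subgroup.mem_centralizer_singleton_iff.mpr
            (h3 u hu a ha))))).resolve_right fun e => ha1 (h2 a e)
    have h5 := Nat.le_of_dvd hp.pos (h1.trans (hd ▸ h4))
    have := hp.two_le
    nlinarith
  · push Not at hc
    obtain ⟨ψ, hψ, hne, h3⟩ := hc
    obtain ⟨k, hk⟩ := exists_charDegree_eq_pow P.isPGroup' hψ
    have h4 := restrict_eq_of_degree_le _ hχ hψ hne (by
      rw [hd, hk]
      exact Nat.le_self_pow (fun e => h3 (by rw [hk, e, pow_zero])) p)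
    have : Nontrivial P := Finite.one_lt_card_iff_nontrivial.mp (lt_of_lt_of_le
      (Nat.one_lt_pow two_ne_zero hp.one_lt) (Nat.le_of_dvd Nat.card_pos h1))
    obtain ⟨⟨z, hz⟩, hz1⟩ := @exists_ne _ P.isPGroup'.center_nontrivial 1
    exact hz1 (Subtype.ext (Subtype.ext (h2 z (norm_apply_of_mem_center
      (χ := fun x : P => χ x) (h4 ▸ hψ) hz))))

theorem mem_center_of_degree_two (h : IsCharacter G χ) (hd : charDegree χ = 2)
    (hf : ∀ g, χ g = χ 1 → g = 1) {t : G} (ht : t * t = 1) (hc : t ∈ commutator G) :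
    t ∈ Subgroup.center G := by
  obtain ⟨m, h1, h2⟩ := exists_degree_sub_eq_four_mul h ht hc
  refine mem_center_of_norm_eq h hf ?_
  rw [h1, ← charDegree_cast h, hd]
  have : m ≤ 1 := by omega
  interval_cases m <;> norm_num

/-- if all constituents of `1_{N(P)}^G` have degree less than `p` then `P` is normal. -/
theorem sylow_normal_of_degree_lt {p : ℕ} [hp : Fact p.Prime] (P : Sylow p G)
    (h : ∀ χ, IsIrrCharacter G χ → charDegree χ < p) : (P : Subgroup G).Normal := by
  classical
  have := Fintype.ofFinite G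
  have := Fintype.ofFinite P
  let N := Subgroup.normalizer ((P : Subgroup G) : Set G)
  have := Fintype.ofFinite N
  have hπ := isCharacter_indFun N (isCharacter_one (G := N))
  obtain ⟨m, hm, hd, hv⟩ := exists_nat_mult hπ
  choose c hc using fun χ : IrrCharacter G => sum_subgroup_eq (isCharacter_of_isIrr χ.2)
    (P : Subgroup G)
  let Q : G → Subgroup P := fun x => (N.comap (MulAut.conj x⁻¹).toMonoidHom).subgroupOf P
  have h1 : Nat.card N * (Nat.card P * ∑ χ, m χ * c χ) = ∑ x, Nat.card (Q x) := by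
    apply Nat.cast_injective (R := ℂ)
    have h2 : ∑ u : P, (Nat.card N : ℂ) * indFun N (fun _ => 1) u = ∑ x, Nat.card (Q x) := by
      simp only [card_mul_indFun]
      rw [Finset.sum_comm, Nat.cast_sum]
      refine Finset.sum_congr rfl fun x _ => ?_
      rw [Nat.card_eq_fintype_card, Fintype.card_subtype, Finset.card_filter, Nat.cast_sum]
      refine Finset.sum_congr rfl fun u _ => ?_
      have e : u ∈ Q x ↔ x⁻¹ * u * x ∈ N := by simp [Q, Subgroup.mem_subgroupOf]
      split_ifs with h3
      · rw [extendByZero_of_mem N _ (e.mp h3), Nat.cast_one]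
      · rw [extendByZero_of_notMem N _ (mt e.mpr h3), Nat.cast_zero]
    rw [← h2, ← Finset.mul_sum]
    simp only [hv]
    rw [Finset.sum_comm]
    simp only [← Finset.mul_sum, hc]
    push_cast
    simp only [Finset.mul_sum]
    exact Finset.sum_congr rfl fun χ _ => by ring
  have h2 : p * ∑ x, Nat.card (Q x) ≤ ∑ x : G, (Nat.card P + if x ∈ N then (p - 1) * Nat.card P
      else 0) := by
    rw [Finset.mul_sum]
    refine Finset.sum_le_sum fun x _ => ?_
    split_ifs with hx
    · have := Nat.mul_le_mul_left p (Subgroup.card_le_card_group (Q x))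
      have h3 : p * Nat.card P = Nat.card P + (p - 1) * Nat.card P := by
        rw [add_comm, ← Nat.succ_mul, Nat.succ_eq_add_one, Nat.sub_add_cancel hp.out.pos]
      omega
    · have h3 : p ∣ (Q x).index := by
        obtain ⟨k, hk⟩ := P.isPGroup'.index (Q x)
        rw [hk]
        refine dvd_pow_self p fun e => hx ?_
        rw [e, pow_zero, Subgroup.index_eq_one] at hk
        refine Subgroup.inv_mem_iff N |>.mp (H43.mem_normalizer_of_conj_mem fun u hu => ?_)
        have h4 : IsPGroup p (Subgroup.zpowers (x⁻¹ * u * x⁻¹⁻¹)) := by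
          obtain ⟨k, hk⟩ := IsPGroup.iff_orderOf.mp P.isPGroup' ⟨u, hu⟩
          exact H43.isPGroup_zpowers_of_orderOf (k := k) (by
            rw [H43.orderOf_conj, ← hk, Subgroup.orderOf_mk])
        have h5 : (⟨u, hu⟩ : P) ∈ Q x := hk ▸ Subgroup.mem_top _
        exact ((h4.inf_normalizer_sylow P).le ⟨Subgroup.mem_zpowers _, h5⟩).2
      rw [add_zero, ← (Q x).index_mul_card]
      exact Nat.mul_le_mul_right _ (Nat.le_of_dvd (Nat.pos_of_ne_zero
        Subgroup.index_ne_zero_of_finite) h3)
  rw [← h1, Finset.sum_add_distrib, ← Finset.sum_filter, Finset.sum_const, Finset.sum_const,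
    ← Fintype.card_subtype, Finset.card_univ, ← Nat.card_eq_fintype_card,
    ← Nat.card_eq_fintype_card, ← N.card_mul_index, smul_eq_mul, smul_eq_mul] at h2
  have h3 : p * ∑ χ, m χ * c χ ≤ N.index + (p - 1) := by
    refine Nat.le_of_mul_le_mul_left ?_ (Nat.mul_pos (Nat.card_pos (α := N)) (Nat.card_pos (α := P)))
    refine le_trans (le_of_eq ?_) (h2.trans (le_of_eq ?_)) <;> ring
  have h4 : m (trivIrr G) = 1 := by
    have := hm (trivIrr G)
    rw [classInner_indFun_left N _ (isClassFunction_of_isIrr (trivIrr G).2)] at this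
    exact_mod_cast this.symm.trans (classInner_irr_self isIrrCharacter_one)
  have h5 : ∀ χ, m χ ≤ m χ * c χ := fun χ => by
    by_cases e : m χ = 0
    · rw [e, zero_mul]
    refine Nat.le_mul_of_pos_right _ (Nat.pos_of_ne_zero fun e' => ?_)
    have h6 : classInner (fun x : N => (χ : G → ℂ) x) (fun _ => 1) ≠ 0 := by
      rw [← classInner_indFun_ne_zero_iff N _ (isClassFunction_of_isIrr χ.2), hm]
      exact_mod_cast e
    have h7 := over_trans (Subgroup.le_normalizer : (P : Subgroup G) ≤ N)
      (isCharacter_of_isIrr χ.2) isIrrCharacter_one h6 isCharacter_one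
      ((classInner_irr_self isIrrCharacter_one).trans_ne one_ne_zero)
    rw [classInner_one_right] at h7
    exact h7 (by rw [show ∑ g : P, _ = _ from hc χ, e']; simp)
  rw [charDegree_indFun N isCharacter_one, charDegree_one, mul_one,
    ← Finset.add_sum_erase _ _ (Finset.mem_univ (trivIrr G)), h4, charDegree_trivIrr] at hd
  have h6 : ∑ χ ∈ Finset.univ.erase (trivIrr G), m χ * charDegree (χ : G → ℂ) ≤
      (p - 1) * ∑ χ ∈ Finset.univ.erase (trivIrr G), m χ := by
    rw [Finset.mul_sum]
    exact Finset.sum_le_sum fun χ _ => by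
      rw [mul_comm]; exact Nat.mul_le_mul_right _ (Nat.le_sub_one_of_lt (h χ χ.2))
  have h7 := Finset.sum_le_sum fun χ (_ : χ ∈ Finset.univ) => h5 χ
  rw [← Finset.add_sum_erase _ _ (Finset.mem_univ (trivIrr G)), h4] at h7
  rw [← Subgroup.normalizer_eq_top_iff, ← Subgroup.index_eq_one]
  change N.index = 1
  obtain ⟨q, rfl⟩ : ∃ q, p = q + 1 := ⟨p - 1, (Nat.succ_pred_eq_of_pos hp.out.pos).symm⟩
  rw [Nat.add_sub_cancel] at h3 h6
  have h8 : ∑ χ ∈ Finset.univ.erase (trivIrr G), m χ = 0 := by
    have := Nat.mul_le_mul_left (q + 1) h7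
    refine Nat.le_zero.mp ?_
    linarith
  rw [h8] at h6
  omega

end Cfsg.Agent.H88
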